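import Mathlib
import Cfsg.Agent.Lib.Helper7.SharpTrans

set_option autoImplicit false

/-! # Jordan's theorem on sharply `k`-transitive groups (`k ≥ 4`) -/

namespace Cfsg.Agent.Lib.Helper7

open MulAction

/-- Four pairwise distinct points. -/
def D4 {α : Type*} (a b c d : α) : Prop := a ≠ b ∧ a ≠ c ∧ a ≠ d ∧ b ≠ c ∧ b ≠ d ∧ c ≠ d

/-- Four distinct points as an embedding of `Fin 4`. -/
def emb4 {α : Type*} (a b c d : α) (h : D4 a b c d) : Fin 4 ↪ α :=
  ⟨![a, b, c, d], by
    obtain ⟨h1, h2, h3, h4, h5, h6⟩ := h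
    intro i j hij
    fin_cases i <;> fin_cases j <;> simp_all⟩

theorem emb4_0 {α : Type*} (a b c d : α) (h : D4 a b c d) : emb4 a b c d h 0 = a := rfl
theorem emb4_1 {α : Type*} (a b c d : α) (h : D4 a b c d) : emb4 a b c d h 1 = b := rfl
theorem emb4_2 {α : Type*} (a b c d : α) (h : D4 a b c d) : emb4 a b c d h 2 = c := rfl
theorem emb4_3 {α : Type*} (a b c d : α) (h : D4 a b c d) : emb4 a b c d h 3 = d := rfl

/-- Elementwise form of 4-transitivity. -/
theorem exists_map4 {G α : Type*} [Group G] [MulAction G α] [IsMultiplyPretransitive G α 4]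
    (a b c d a' b' c' d' : α) (h : D4 a b c d) (h' : D4 a' b' c' d') :
    ∃ g : G, g • a = a' ∧ g • b = b' ∧ g • c = c' ∧ g • d = d' := by
  obtain ⟨g, hg⟩ := exists_smul_eq G (emb4 a b c d h) (emb4 a' b' c' d' h')
  refine ⟨g, ?_, ?_, ?_, ?_⟩
  · have := congrArg (fun e : Fin 4 ↪ α => e 0) hg; exact this
  · have := congrArg (fun e : Fin 4 ↪ α => e 1) hg; exact this
  · have := congrArg (fun e : Fin 4 ↪ α => e 2) hg; exact this
  · have := congrArg (fun e : Fin 4 ↪ α => e 3) hg; exact this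

/-- Elementwise form of sharpness. -/
theorem eq_one_of_fix4 {G α : Type*} [Group G] [MulAction G α]
    (hsharp : ∀ x : Fin 4 ↪ α, stabilizer G x = ⊥)
    (g : G) (a b c d : α) (h : D4 a b c d) (ha : g • a = a) (hb : g • b = b) (hc : g • c = c)
    (hd : g • d = d) : g = 1 := by
  have hmem : g ∈ stabilizer G (emb4 a b c d h) := by
    rw [mem_stabilizer_iff]
    apply Function.Embedding.ext
    intro i
    fin_cases i
    · exact ha
    · exact hb
    · exact hc
    · exact hd
  rw [hsharp] at hmem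
  exact Subgroup.mem_bot.mp hmem

/-- The number of fixed points of an element of prime order `p` is congruent to the degree
modulo `p`. -/
theorem card_fixed_modEq {G α : Type*} [Group G] [MulAction G α] [Fintype α] [DecidableEq α]
    (g : G) (p : ℕ) [Fact p.Prime] (hg : g ^ p = 1) :
    (Finset.univ.filter (fun q : α => g • q = q)).card ≡ Fintype.card α [MOD p] := by
  have h1 : (MulAction.toPerm g : Equiv.Perm α) ^ p ^ 1 = 1 := by
    rw [pow_one]
    have h := map_pow (MulAction.toPermHom G α) g p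
    rw [hg, map_one] at h
    exact h.symm
  have h2 := Equiv.Perm.card_compl_support_modEq h1
  have h3 : (MulAction.toPerm g : Equiv.Perm α).supportᶜ =
      Finset.univ.filter (fun q : α => g • q = q) := by
    ext q
    simp [Equiv.Perm.mem_support]
  rw [h3] at h2
  exact h2

/-- An involution with two given fixed points and at most three fixed points altogether:
either it has a third fixed point and the degree is odd, or it has none and the degree is
even. -/
theorem inv_fix_cases {G α : Type*} [Group G] [MulAction G α] [Fintype α] [DecidableEq α]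
    (g : G) (hg : g * g = 1) (a b : α) (hab : a ≠ b) (ha : g • a = a) (hb : g • b = b)
    (hA : ∀ q q', g • q = q → g • q' = q' → q ≠ a → q ≠ b → q' ≠ a → q' ≠ b → q = q') :
    (∃ e, g • e = e ∧ e ≠ a ∧ e ≠ b ∧ Fintype.card α % 2 = 1) ∨
      ((∀ q, g • q = q → q = a ∨ q = b) ∧ Fintype.card α % 2 = 0) := by
  have h2 : Fact (Nat.Prime 2) := ⟨Nat.prime_two⟩
  have hmod := card_fixed_modEq (α := α) g 2 (by rw [pow_two]; exact hg)
  unfold Nat.ModEq at hmod
  by_cases h : ∃ e, g • e = e ∧ e ≠ a ∧ e ≠ b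
  · obtain ⟨e, he, hea, heb⟩ := h
    left
    refine ⟨e, he, hea, heb, ?_⟩
    have hF : Finset.univ.filter (fun q : α => g • q = q) = {a, b, e} := by
      ext q
      simp only [Finset.mem_filter, Finset.mem_univ, true_and, Finset.mem_insert,
        Finset.mem_singleton]
      constructor
      · intro hq
        by_cases hqa : q = a
        · exact Or.inl hqa
        · by_cases hqb : q = b
          · exact Or.inr (Or.inl hqb)
          · exact Or.inr (Or.inr (hA q e hq he hqa hqb hea heb))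
      · rintro (rfl | rfl | rfl) <;> assumption
    rw [hF] at hmod
    have hc : ({a, b, e} : Finset α).card = 3 := by
      rw [Finset.card_insert_of_notMem, Finset.card_insert_of_notMem, Finset.card_singleton]
      · simpa using heb.symm
      · simp only [Finset.mem_insert, Finset.mem_singleton, not_or]
        exact ⟨hab, hea.symm⟩
    rw [hc] at hmod
    omega
  · right
    push Not at h
    have hall : ∀ q, g • q = q → q = a ∨ q = b := by
      intro q hq
      by_contra hc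
      push Not at hc
      exact hc.2 (h q hq hc.1)
    refine ⟨hall, ?_⟩
    have hF : Finset.univ.filter (fun q : α => g • q = q) = {a, b} := by
      ext q
      simp only [Finset.mem_filter, Finset.mem_univ, true_and, Finset.mem_insert,
        Finset.mem_singleton]
      constructor
      · exact hall q
      · rintro (rfl | rfl) <;> assumption
    rw [hF, Finset.card_pair hab] at hmod
    omega

/-- The pointwise stabiliser of three points. -/
def stab3 (G : Type*) {α : Type*} [Group G] [MulAction G α] (p1 p2 p3 : α) : Subgroup G where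
  carrier := {t | t • p1 = p1 ∧ t • p2 = p2 ∧ t • p3 = p3}
  mul_mem' := by
    rintro s t ⟨hs1, hs2, hs3⟩ ⟨ht1, ht2, ht3⟩
    exact ⟨by rw [mul_smul, ht1, hs1], by rw [mul_smul, ht2, hs2], by rw [mul_smul, ht3, hs3]⟩
  one_mem' := ⟨one_smul _ _, one_smul _ _, one_smul _ _⟩
  inv_mem' := by
    rintro t ⟨ht1, ht2, ht3⟩
    exact ⟨by rw [inv_smul_eq_iff, ht1], by rw [inv_smul_eq_iff, ht2],
      by rw [inv_smul_eq_iff, ht3]⟩

theorem mem_stab3 {G α : Type*} [Group G] [MulAction G α] {p1 p2 p3 : α} {t : G} :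
    t ∈ stab3 G p1 p2 p3 ↔ t • p1 = p1 ∧ t • p2 = p2 ∧ t • p3 = p3 := Iff.rfl

section Sharp4

variable {G α : Type*} [Group G] [MulAction G α]
  (hS : ∀ (g : G) (a b c d : α), D4 a b c d → g • a = a → g • b = b → g • c = c →
    g • d = d → g = 1)
  (hT : ∀ (a b c d a' b' c' d' : α), D4 a b c d → D4 a' b' c' d' →
    ∃ g : G, g • a = a' ∧ g • b = b' ∧ g • c = c' ∧ g • d = d')

include hS in
theorem eq_of_agree4 (g h : G) (a b c d : α) (hd : D4 a b c d) (ha : g • a = h • a)
    (hb : g • b = h • b) (hc : g • c = h • c) (hd' : g • d = h • d) : g = h := by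
  have h1 : h⁻¹ * g = 1 := hS _ a b c d hd (by rw [mul_smul, ha, inv_smul_smul])
    (by rw [mul_smul, hb, inv_smul_smul]) (by rw [mul_smul, hc, inv_smul_smul])
    (by rw [mul_smul, hd', inv_smul_smul])
  exact (inv_mul_eq_one.mp h1).symm

include hS in
theorem stab3_free {p1 p2 p3 : α} (h12 : p1 ≠ p2) (h13 : p1 ≠ p3) (h23 : p2 ≠ p3) {t : G}
    (ht : t ∈ stab3 G p1 p2 p3) {q : α} (h1 : q ≠ p1) (h2 : q ≠ p2) (h3 : q ≠ p3)
    (hq : t • q = q) : t = 1 :=
  hS t p1 p2 p3 q ⟨h12, h13, h1.symm, h23, h2.symm, h3.symm⟩ ht.1 ht.2.1 ht.2.2 hq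

include hS in
theorem stab3_eq {p1 p2 p3 : α} (h12 : p1 ≠ p2) (h13 : p1 ≠ p3) (h23 : p2 ≠ p3) {s t : G}
    (hs : s ∈ stab3 G p1 p2 p3) (ht : t ∈ stab3 G p1 p2 p3) {q : α} (h1 : q ≠ p1)
    (h2 : q ≠ p2) (h3 : q ≠ p3) (hq : s • q = t • q) : s = t := by
  have h : t⁻¹ * s = 1 := stab3_free hS h12 h13 h23
    ((stab3 G p1 p2 p3).mul_mem ((stab3 G p1 p2 p3).inv_mem ht) hs) h1 h2 h3
    (by rw [mul_smul, hq, inv_smul_smul])
  exact (inv_mul_eq_one.mp h).symm

theorem stab3_out {p1 p2 p3 : α} {t : G} (ht : t ∈ stab3 G p1 p2 p3) {q : α} (h1 : q ≠ p1)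
    (h2 : q ≠ p2) (h3 : q ≠ p3) : t • q ≠ p1 ∧ t • q ≠ p2 ∧ t • q ≠ p3 := by
  refine ⟨fun h => h1 ?_, fun h => h2 ?_, fun h => h3 ?_⟩
  · exact smul_left_cancel t (h.trans ht.1.symm)
  · exact smul_left_cancel t (h.trans ht.2.1.symm)
  · exact smul_left_cancel t (h.trans ht.2.2.symm)

include hT in
theorem stab3_trans {p1 p2 p3 : α} (h12 : p1 ≠ p2) (h13 : p1 ≠ p3) (h23 : p2 ≠ p3) {q q' : α}
    (h1 : q ≠ p1) (h2 : q ≠ p2) (h3 : q ≠ p3) (h1' : q' ≠ p1) (h2' : q' ≠ p2) (h3' : q' ≠ p3) :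
    ∃ t ∈ stab3 G p1 p2 p3, t • q = q' := by
  obtain ⟨t, ht1, ht2, ht3, ht4⟩ := hT p1 p2 p3 q p1 p2 p3 q'
    ⟨h12, h13, h1.symm, h23, h2.symm, h3.symm⟩ ⟨h12, h13, h1'.symm, h23, h2'.symm, h3'.symm⟩
  exact ⟨t, ⟨ht1, ht2, ht3⟩, ht4⟩

include hS hT in
/-- The pointwise stabiliser of three points has at most one involution. -/
theorem stab3_unique_inv {p1 p2 p3 p4 : α} (hD : D4 p1 p2 p3 p4) {u u' : G}
    (hu : u ∈ stab3 G p1 p2 p3) (hu' : u' ∈ stab3 G p1 p2 p3) (hu2 : u * u = 1)
    (hu2' : u' * u' = 1) (hu1 : u ≠ 1) (hu1' : u' ≠ 1) : u = u' := by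
  obtain ⟨h12, h13, h14, h23, h24, h34⟩ := id hD
  have hb4 : u • p4 ≠ p4 := fun h =>
    hu1 (stab3_free hS h12 h13 h23 hu h14.symm h24.symm h34.symm h)
  have hb4' : u' • p4 ≠ p4 := fun h =>
    hu1' (stab3_free hS h12 h13 h23 hu' h14.symm h24.symm h34.symm h)
  obtain ⟨hb1, hb2, -⟩ := stab3_out hu h14.symm h24.symm h34.symm
  obtain ⟨hb1', hb2', -⟩ := stab3_out hu' h14.symm h24.symm h34.symm
  obtain ⟨h, hh1, hh2, hh4, hhb⟩ := hT p1 p2 p4 (u • p4) p1 p2 p4 (u' • p4)
    ⟨h12, h14, hb1.symm, h24, hb2.symm, hb4.symm⟩ ⟨h12, h14, hb1'.symm, h24, hb2'.symm, hb4'.symm⟩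
  have hi1 : h⁻¹ • p1 = p1 := by rw [inv_smul_eq_iff, hh1]
  have hi2 : h⁻¹ • p2 = p2 := by rw [inv_smul_eq_iff, hh2]
  have hi4 : h⁻¹ • p4 = p4 := by rw [inv_smul_eq_iff, hh4]
  have hib : h⁻¹ • (u' • p4) = u • p4 := by rw [inv_smul_eq_iff, hhb]
  have e1 : h * u * h⁻¹ = u' := by
    apply eq_of_agree4 hS _ _ p1 p2 p4 (u' • p4)
      ⟨h12, h14, hb1'.symm, h24, hb2'.symm, hb4'.symm⟩
    · rw [mul_smul, mul_smul, hi1, hu.1, hh1, hu'.1]
    · rw [mul_smul, mul_smul, hi2, hu.2.1, hh2, hu'.2.1]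
    · rw [mul_smul, mul_smul, hi4, hhb]
    · rw [mul_smul, mul_smul, hib, ← mul_smul u u, hu2, one_smul, hh4, ← mul_smul, hu2',
        one_smul]
  have e2 : u' • (h • p3) = h • p3 := by
    rw [← e1, mul_smul, mul_smul, inv_smul_smul, hu.2.2]
  have e3 : h • p3 = p3 := by
    by_contra hne
    have hn1 : h • p3 ≠ p1 := fun hc => h13.symm (smul_left_cancel h (hc.trans hh1.symm))
    have hn2 : h • p3 ≠ p2 := fun hc => h23.symm (smul_left_cancel h (hc.trans hh2.symm))
    exact hu1' (stab3_free hS h12 h13 h23 hu' hn1 hn2 hne e2)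
  have e4 : h = 1 := hS h p1 p2 p3 p4 hD hh1 hh2 e3 hh4
  rw [e4, one_smul] at hhb
  exact stab3_eq hS h12 h13 h23 hu hu' h14.symm h24.symm h34.symm hhb

/-- If an involution `x` normalises `T` and only the identity of `T` commutes with it, then
`x` inverts every element of `T`. -/
theorem inverts_of_fpf [Finite G] (T : Subgroup G) (x : G) (hxsq : x * x = 1)
    (hxT : ∀ t ∈ T, x * t * x⁻¹ ∈ T) (hxC : ∀ t ∈ T, x * t = t * x → t = 1) :
    ∀ s ∈ T, x * s * x⁻¹ = s⁻¹ := by
  intro s hs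
  have hxinv : x⁻¹ = x := inv_eq_of_mul_eq_one_left hxsq
  let φ : T → T := fun t => ⟨t.1 * x * t.1⁻¹ * x⁻¹, by
    have h := T.mul_mem t.2 (hxT _ (T.inv_mem t.2))
    have e : t.1 * x * t.1⁻¹ * x⁻¹ = t.1 * (x * t.1⁻¹ * x⁻¹) := by group
    rw [e]; exact h⟩
  have hinj : Function.Injective φ := by
    intro t t' h
    have h' : t.1 * x * t.1⁻¹ * x⁻¹ = t'.1 * x * t'.1⁻¹ * x⁻¹ := congrArg Subtype.val h
    have h'' : t.1 * x * t.1⁻¹ = t'.1 * x * t'.1⁻¹ := mul_right_cancel h'
    have hc : x * (t'.1⁻¹ * t.1) = (t'.1⁻¹ * t.1) * x := by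
      calc x * (t'.1⁻¹ * t.1) = t'.1⁻¹ * (t'.1 * x * t'.1⁻¹) * t.1 := by group
        _ = t'.1⁻¹ * (t.1 * x * t.1⁻¹) * t.1 := by rw [h'']
        _ = (t'.1⁻¹ * t.1) * x := by group
    have h1 := hxC _ (T.mul_mem (T.inv_mem t'.2) t.2) hc
    exact Subtype.ext (inv_mul_eq_one.mp h1).symm
  have hsurj : Function.Surjective φ := Finite.surjective_of_injective hinj
  obtain ⟨t, ht⟩ := hsurj ⟨s, hs⟩
  have hs' : s = t.1 * x * t.1⁻¹ * x⁻¹ := (congrArg Subtype.val ht).symm
  rw [hs', hxinv]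
  have e : (t.1 * x * t.1⁻¹ * x)⁻¹ = x * t.1 * x * t.1⁻¹ := by
    rw [mul_inv_rev, mul_inv_rev, mul_inv_rev, inv_inv, hxinv]; group
  rw [e]
  calc x * (t.1 * x * t.1⁻¹ * x) * x = x * t.1 * x * t.1⁻¹ * (x * x) := by group
    _ = x * t.1 * x * t.1⁻¹ := by rw [hxsq, mul_one]

/-- If an involution `x` normalises `T` and at most `1, u` in `T` commute with it, then at
least half of the elements of `T` are inverted by `x`. -/
theorem inverted_set [Fintype G] [DecidableEq G] (T : Subgroup G) [DecidablePred (· ∈ T)]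
    (u x : G) (hxsq : x * x = 1)
    (hxT : ∀ t ∈ T, x * t * x⁻¹ ∈ T) (hxC : ∀ t ∈ T, x * t = t * x → t = 1 ∨ t = u) :
    ∃ J : Finset G, (∀ s ∈ J, s ∈ T ∧ x * s * x⁻¹ = s⁻¹) ∧
      (Finset.univ.filter (fun t => t ∈ T)).card ≤ 2 * J.card := by
  have hxinv : x⁻¹ = x := inv_eq_of_mul_eq_one_left hxsq
  refine ⟨(Finset.univ.filter (fun t => t ∈ T)).image (fun t => t * x * t⁻¹ * x⁻¹), ?_, ?_⟩
  · intro s hs
    rw [Finset.mem_image] at hs
    obtain ⟨t, ht, rfl⟩ := hs
    have htT : t ∈ T := (Finset.mem_filter.mp ht).2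
    constructor
    · have h := T.mul_mem htT (hxT _ (T.inv_mem htT))
      have e : t * x * t⁻¹ * x⁻¹ = t * (x * t⁻¹ * x⁻¹) := by group
      rw [e]; exact h
    · rw [hxinv]
      have e : (t * x * t⁻¹ * x)⁻¹ = x * t * x * t⁻¹ := by
        rw [mul_inv_rev, mul_inv_rev, mul_inv_rev, inv_inv, hxinv]; group
      rw [e]
      calc x * (t * x * t⁻¹ * x) * x = x * t * x * t⁻¹ * (x * x) := by group
        _ = x * t * x * t⁻¹ := by rw [hxsq, mul_one]
  · apply Finset.card_le_mul_card_image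
    intro a ha
    rw [Finset.mem_image] at ha
    obtain ⟨t0, ht0, rfl⟩ := ha
    have ht0T : t0 ∈ T := (Finset.mem_filter.mp ht0).2
    have hsub : (Finset.univ.filter (fun t => t ∈ T)).filter
        (fun s => s * x * s⁻¹ * x⁻¹ = t0 * x * t0⁻¹ * x⁻¹) ⊆ {t0, t0 * u} := by
      intro s hs
      rw [Finset.mem_filter] at hs
      obtain ⟨hsT, hse⟩ := hs
      have hsT' : s ∈ T := (Finset.mem_filter.mp hsT).2
      have h'' : s * x * s⁻¹ = t0 * x * t0⁻¹ := mul_right_cancel hse
      have hc : x * (t0⁻¹ * s) = (t0⁻¹ * s) * x := by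
        calc x * (t0⁻¹ * s) = t0⁻¹ * (t0 * x * t0⁻¹) * s := by group
          _ = t0⁻¹ * (s * x * s⁻¹) * s := by rw [h'']
          _ = (t0⁻¹ * s) * x := by group
      rw [Finset.mem_insert, Finset.mem_singleton]
      rcases hxC _ (T.mul_mem (T.inv_mem ht0T) hsT') hc with h | h
      · left; exact (inv_mul_eq_one.mp h).symm
      · right; rw [← h]; group
    exact (Finset.card_le_card hsub).trans Finset.card_le_two

/-- Elements inverted by two involutions `a`, `b` commute with `a * b`. -/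
theorem inter_inverted_le [DecidableEq G] (T : Subgroup G) (u a b : G)
    (hab : ∀ s ∈ T, (a * b) * s = s * (a * b) → s = 1 ∨ s = u) (Ja Jb : Finset G)
    (hJa : ∀ s ∈ Ja, s ∈ T ∧ a * s * a⁻¹ = s⁻¹) (hJb : ∀ s ∈ Jb, s ∈ T ∧ b * s * b⁻¹ = s⁻¹) :
    (Ja ∩ Jb).card ≤ 2 := by
  have hsub : Ja ∩ Jb ⊆ {1, u} := by
    intro s hs
    rw [Finset.mem_inter] at hs
    obtain ⟨hsT, ha⟩ := hJa s hs.1
    obtain ⟨-, hb⟩ := hJb s hs.2
    have e1 : b * s = s⁻¹ * b := by
      calc b * s = (b * s * b⁻¹) * b := by group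
        _ = s⁻¹ * b := by rw [hb]
    have e2 : a * s⁻¹ = s * a := by
      have h : a * s⁻¹ * a⁻¹ = s := by
        calc a * s⁻¹ * a⁻¹ = (a * s * a⁻¹)⁻¹ := by group
          _ = s := by rw [ha, inv_inv]
      calc a * s⁻¹ = (a * s⁻¹ * a⁻¹) * a := by group
        _ = s * a := by rw [h]
    have hc : (a * b) * s = s * (a * b) := by
      calc a * b * s = a * (b * s) := by group
        _ = a * (s⁻¹ * b) := by rw [e1]
        _ = (a * s⁻¹) * b := by group
        _ = (s * a) * b := by rw [e2]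
        _ = s * (a * b) := by group
    rw [Finset.mem_insert, Finset.mem_singleton]
    exact hab s hsT hc
  exact (Finset.card_le_card hsub).trans Finset.card_le_two

include hS hT in
/-- **Jordan**: a sharply 4-transitive group of degree at least 7 has degree 11. -/
theorem jordan4_core [Finite G] [Finite α] (hn : 7 ≤ Nat.card α) : Nat.card α = 11 := by
  classical
  have := Fintype.ofFinite α
  have := Fintype.ofFinite G
  rw [Nat.card_eq_fintype_card] at hn ⊢
  obtain ⟨p1, p2, p3, p4, hD⟩ : ∃ p1 p2 p3 p4 : α, D4 p1 p2 p3 p4 := by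
    obtain ⟨x⟩ := Function.Embedding.nonempty_of_card_le (α := Fin 4) (β := α)
      (by rw [Fintype.card_fin]; omega)
    refine ⟨x 0, x 1, x 2, x 3, ?_, ?_, ?_, ?_, ?_, ?_⟩ <;>
      (intro h; exact absurd (x.injective h) (by decide))
  obtain ⟨h12, h13, h14, h23, h24, h34⟩ := id hD
  obtain ⟨x1, hx11, hx12, hx13, hx14⟩ := hT p1 p2 p3 p4 p2 p1 p3 p4 hD
    ⟨h12.symm, h23, h24, h13, h14, h34⟩
  obtain ⟨x2, hx21, hx22, hx23, hx24⟩ := hT p1 p2 p3 p4 p1 p3 p2 p4 hD
    ⟨h13, h12, h14, h23.symm, h34, h24⟩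
  have hx1sq : x1 * x1 = 1 := hS _ p1 p2 p3 p4 hD (by rw [mul_smul, hx11, hx12])
    (by rw [mul_smul, hx12, hx11]) (by rw [mul_smul, hx13, hx13]) (by rw [mul_smul, hx14, hx14])
  have hx2sq : x2 * x2 = 1 := hS _ p1 p2 p3 p4 hD (by rw [mul_smul, hx21, hx21])
    (by rw [mul_smul, hx22, hx23]) (by rw [mul_smul, hx23, hx22]) (by rw [mul_smul, hx24, hx24])
  have hx1inv : x1⁻¹ = x1 := inv_eq_of_mul_eq_one_left hx1sq
  have hx2inv : x2⁻¹ = x2 := inv_eq_of_mul_eq_one_left hx2sq
  have hx1ne : x1 ≠ 1 := by intro h; rw [h, one_smul] at hx11; exact h12 hx11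
  have hx2ne : x2 ≠ 1 := by intro h; rw [h, one_smul] at hx22; exact h23 hx22
  set T := stab3 G p1 p2 p3 with hTdef
  have hTx1 : ∀ t ∈ T, x1 * t * x1⁻¹ ∈ T := by
    intro t ht
    rw [hx1inv]
    refine ⟨?_, ?_, ?_⟩
    · rw [mul_smul, mul_smul, hx11, ht.2.1, hx12]
    · rw [mul_smul, mul_smul, hx12, ht.1, hx11]
    · rw [mul_smul, mul_smul, hx13, ht.2.2, hx13]
  have hTx2 : ∀ t ∈ T, x2 * t * x2⁻¹ ∈ T := by
    intro t ht
    rw [hx2inv]
    refine ⟨?_, ?_, ?_⟩
    · rw [mul_smul, mul_smul, hx21, ht.1, hx21]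
    · rw [mul_smul, mul_smul, hx22, ht.2.2, hx23]
    · rw [mul_smul, mul_smul, hx23, ht.2.1, hx22]
  have hA1 : ∀ q q', x1 • q = q → x1 • q' = q' → q ≠ p3 → q ≠ p4 → q' ≠ p3 → q' ≠ p4 →
      q = q' := by
    intro q q' hq hq' h3 h4 h3' h4'
    by_contra hne
    exact hx1ne (hS x1 p3 p4 q q' ⟨h34, h3.symm, h3'.symm, h4.symm, h4'.symm, hne⟩
      hx13 hx14 hq hq')
  have hA2 : ∀ q q', x2 • q = q → x2 • q' = q' → q ≠ p1 → q ≠ p4 → q' ≠ p1 → q' ≠ p4 →
      q = q' := by
    intro q q' hq hq' h3 h4 h3' h4'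
    by_contra hne
    exact hx2ne (hS x2 p1 p4 q q' ⟨h14, h3.symm, h3'.symm, h4.symm, h4'.symm, hne⟩
      hx21 hx24 hq hq')
  rcases inv_fix_cases x1 hx1sq p3 p4 h34 hx13 hx14 hA1 with
    ⟨e1, he1, he13, he14, hodd⟩ | ⟨hF1, heven⟩ <;>
  rcases inv_fix_cases x2 hx2sq p1 p4 h14 hx21 hx24 hA2 with
    ⟨e2, he2, he21, he24, hodd2⟩ | ⟨hF2, heven2⟩
  · -- odd degree
    have he11 : e1 ≠ p1 := by intro h; rw [h, hx11] at he1; exact h12 he1.symm
    have he12 : e1 ≠ p2 := by intro h; rw [h, hx12] at he1; exact h12 he1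
    have he22 : e2 ≠ p2 := by intro h; rw [h, hx22] at he2; exact h23 he2.symm
    have he23 : e2 ≠ p3 := by intro h; rw [h, hx23] at he2; exact h23 he2
    -- the involution of `T` attached to `x1`
    obtain ⟨u1, hu1T, hu1⟩ := stab3_trans hT h12 h13 h23 h14.symm h24.symm h34.symm
      he11 he12 he13
    have hu1c : x1 * u1 * x1⁻¹ = u1 := stab3_eq hS h12 h13 h23 (hTx1 u1 hu1T) hu1T
      h14.symm h24.symm h34.symm (by rw [mul_smul, mul_smul, hx1inv, hx14, hu1, he1])
    have hu1comm : x1 * u1 = u1 * x1 := by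
      calc x1 * u1 = (x1 * u1 * x1⁻¹) * x1 := by group
        _ = u1 * x1 := by rw [hu1c]
    have hu1ne : u1 ≠ 1 := by intro h; rw [h, one_smul] at hu1; exact he14 hu1.symm
    have hu1e : u1 • e1 = p4 := by
      have hfix : x1 • (u1 • e1) = u1 • e1 := by rw [← mul_smul, hu1comm, mul_smul, he1]
      obtain ⟨-, -, ho3⟩ := stab3_out hu1T he11 he12 he13
      by_contra hne
      have h : u1 • e1 = e1 := hA1 _ _ hfix he1 ho3 hne he13 he14
      exact hu1ne (stab3_free hS h12 h13 h23 hu1T he11 he12 he13 h)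
    have hu1sq : u1 * u1 = 1 := stab3_free hS h12 h13 h23 (T.mul_mem hu1T hu1T)
      h14.symm h24.symm h34.symm (by rw [mul_smul, hu1, hu1e])
    -- the involution of `T` attached to `x2`
    obtain ⟨u2, hu2T, hu2⟩ := stab3_trans hT h12 h13 h23 h14.symm h24.symm h34.symm
      he21 he22 he23
    have hu2c : x2 * u2 * x2⁻¹ = u2 := stab3_eq hS h12 h13 h23 (hTx2 u2 hu2T) hu2T
      h14.symm h24.symm h34.symm (by rw [mul_smul, mul_smul, hx2inv, hx24, hu2, he2])
    have hu2comm : x2 * u2 = u2 * x2 := by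
      calc x2 * u2 = (x2 * u2 * x2⁻¹) * x2 := by group
        _ = u2 * x2 := by rw [hu2c]
    have hu2ne : u2 ≠ 1 := by intro h; rw [h, one_smul] at hu2; exact he24 hu2.symm
    have hu2e : u2 • e2 = p4 := by
      have hfix : x2 • (u2 • e2) = u2 • e2 := by rw [← mul_smul, hu2comm, mul_smul, he2]
      obtain ⟨ho1, -, -⟩ := stab3_out hu2T he21 he22 he23
      by_contra hne
      have h : u2 • e2 = e2 := hA2 _ _ hfix he2 ho1 hne he21 he24
      exact hu2ne (stab3_free hS h12 h13 h23 hu2T he21 he22 he23 h)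
    have hu2sq : u2 * u2 = 1 := stab3_free hS h12 h13 h23 (T.mul_mem hu2T hu2T)
      h14.symm h24.symm h34.symm (by rw [mul_smul, hu2, hu2e])
    have hu12 : u1 = u2 := stab3_unique_inv hS hT hD hu1T hu2T hu1sq hu2sq hu1ne hu2ne
    subst hu12
    have hee : e1 = e2 := hu1.symm.trans hu2
    subst hee
    -- the element `w` of order 3
    have hw1 : (x1 * x2) • p1 = p2 := by rw [mul_smul, hx21, hx11]
    have hw2 : (x1 * x2) • p2 = p3 := by rw [mul_smul, hx22, hx13]
    have hw3 : (x1 * x2) • p3 = p1 := by rw [mul_smul, hx23, hx12]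
    have hw4 : (x1 * x2) • p4 = p4 := by rw [mul_smul, hx24, hx14]
    have hwe : (x1 * x2) • e1 = e1 := by rw [mul_smul, he2, he1]
    have hwu : (x1 * x2) * u1 = u1 * (x1 * x2) := by
      calc x1 * x2 * u1 = x1 * (x2 * u1) := by group
        _ = x1 * (u1 * x2) := by rw [hu2comm]
        _ = (x1 * u1) * x2 := by group
        _ = (u1 * x1) * x2 := by rw [hu1comm]
        _ = u1 * (x1 * x2) := by group
    set w := x1 * x2 with hwdef
    have hwww : w * w * w = 1 := hS _ p1 p2 p3 p4 hD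
      (by rw [mul_smul, mul_smul, hw1, hw2, hw3]) (by rw [mul_smul, mul_smul, hw2, hw3, hw1])
      (by rw [mul_smul, mul_smul, hw3, hw1, hw2]) (by rw [mul_smul, mul_smul, hw4, hw4, hw4])
    have hwne : w ≠ 1 := by intro h; rw [h, one_smul] at hw1; exact h12 hw1
    have hFw : ∀ q, w • q = q → q = p4 ∨ q = e1 := by
      intro q hq
      by_contra hc
      push Not at hc
      obtain ⟨hq4, hqe⟩ := hc
      have hq1 : q ≠ p1 := by intro h; rw [h, hw1] at hq; exact h12 hq.symm
      have hq2 : q ≠ p2 := by intro h; rw [h, hw2] at hq; exact h23 hq.symm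
      have hq3 : q ≠ p3 := by intro h; rw [h, hw3] at hq; exact h13 hq
      have huq : w • (u1 • q) = u1 • q := by rw [← mul_smul, hwu, mul_smul, hq]
      have h1 : u1 • q ≠ q := fun h => hu1ne (stab3_free hS h12 h13 h23 hu1T hq1 hq2 hq3 h)
      have h2 : u1 • q ≠ p4 := fun h => hqe (smul_left_cancel u1 (h.trans hu1e.symm))
      have h3 : u1 • q ≠ e1 := fun h => hq4 (smul_left_cancel u1 (h.trans hu1.symm))
      exact hwne (hS w p4 e1 q (u1 • q)
        ⟨he14.symm, hq4.symm, h2.symm, hqe.symm, h3.symm, h1.symm⟩ hw4 hwe hq huq)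
    have h3p : Fact (Nat.Prime 3) := ⟨Nat.prime_three⟩
    have hmod3 := card_fixed_modEq (α := α) w 3 (by rw [pow_three']; exact hwww)
    have hFw' : Finset.univ.filter (fun q : α => w • q = q) = {p4, e1} := by
      ext q
      simp only [Finset.mem_filter, Finset.mem_univ, true_and, Finset.mem_insert,
        Finset.mem_singleton]
      constructor
      · exact hFw q
      · rintro (rfl | rfl) <;> assumption
    rw [hFw', Finset.card_pair he14.symm] at hmod3
    unfold Nat.ModEq at hmod3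
    -- centralisers in `T`
    have hCw : ∀ s ∈ T, w * s = s * w → s = 1 ∨ s = u1 := by
      intro s hs hc
      have hfix : w • (s • p4) = s • p4 := by rw [← mul_smul, hc, mul_smul, hw4]
      rcases hFw _ hfix with h | h
      · left; exact stab3_free hS h12 h13 h23 hs h14.symm h24.symm h34.symm h
      · right
        exact stab3_eq hS h12 h13 h23 hs hu1T h14.symm h24.symm h34.symm (h.trans hu1.symm)
    have hC1 : ∀ s ∈ T, x1 * s = s * x1 → s = 1 ∨ s = u1 := by
      intro s hs hc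
      have hfix : x1 • (s • p4) = s • p4 := by rw [← mul_smul, hc, mul_smul, hx14]
      obtain ⟨-, -, ho3⟩ := stab3_out hs h14.symm h24.symm h34.symm
      by_cases h4 : s • p4 = p4
      · left; exact stab3_free hS h12 h13 h23 hs h14.symm h24.symm h34.symm h4
      · right
        have h : s • p4 = e1 := hA1 _ _ hfix he1 ho3 h4 he13 he14
        exact stab3_eq hS h12 h13 h23 hs hu1T h14.symm h24.symm h34.symm (h.trans hu1.symm)
    have hC2 : ∀ s ∈ T, x2 * s = s * x2 → s = 1 ∨ s = u1 := by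
      intro s hs hc
      have hfix : x2 • (s • p4) = s • p4 := by rw [← mul_smul, hc, mul_smul, hx24]
      obtain ⟨ho1, -, -⟩ := stab3_out hs h14.symm h24.symm h34.symm
      by_cases h4 : s • p4 = p4
      · left; exact stab3_free hS h12 h13 h23 hs h14.symm h24.symm h34.symm h4
      · right
        have h : s • p4 = e1 := hA2 _ _ hfix he2 ho1 h4 he21 he24
        exact stab3_eq hS h12 h13 h23 hs hu1T h14.symm h24.symm h34.symm (h.trans hu1.symm)
    -- the third involution
    have hx3sq : (x1 * x2 * x1) * (x1 * x2 * x1) = 1 := by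
      calc x1 * x2 * x1 * (x1 * x2 * x1) = x1 * x2 * (x1 * x1) * x2 * x1 := by group
        _ = x1 * (x2 * x2) * x1 := by rw [hx1sq]; group
        _ = 1 := by rw [hx2sq, mul_one, hx1sq]
    have hTx3 : ∀ t ∈ T, (x1 * x2 * x1) * t * (x1 * x2 * x1)⁻¹ ∈ T := by
      intro t ht
      have h1 := hTx1 _ (hTx2 _ (hTx1 t ht))
      have e : (x1 * x2 * x1) * t * (x1 * x2 * x1)⁻¹ =
          x1 * (x2 * (x1 * t * x1⁻¹) * x2⁻¹) * x1⁻¹ := by group
      rw [e]; exact h1
    have hC3 : ∀ s ∈ T, (x1 * x2 * x1) * s = s * (x1 * x2 * x1) → s = 1 ∨ s = u1 := by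
      intro s hs hc
      have hs' := hTx1 s hs
      have hc' : x2 * (x1 * s * x1⁻¹) = (x1 * s * x1⁻¹) * x2 := by
        rw [hx1inv]
        calc x2 * (x1 * s * x1) = (x1 * x1) * x2 * (x1 * s * x1) := by rw [hx1sq, one_mul]
          _ = x1 * (x1 * x2 * x1 * s) * x1 := by group
          _ = x1 * (s * (x1 * x2 * x1)) * x1 := by rw [hc]
          _ = x1 * s * x1 * x2 * (x1 * x1) := by group
          _ = x1 * s * x1 * x2 := by rw [hx1sq, mul_one]
      have hse : s = x1⁻¹ * (x1 * s * x1⁻¹) * x1 := by group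
      rcases hC2 _ hs' hc' with h | h
      · left
        rw [hse, h]; group
      · right
        rw [hse, h, hx1inv]
        calc x1 * u1 * x1 = u1 * (x1 * x1) := by rw [hu1comm]; group
          _ = u1 := by rw [hx1sq, mul_one]
    -- the three sets of inverted elements
    obtain ⟨J1, hJ1, hJ1c⟩ := inverted_set T u1 x1 hx1sq hTx1 hC1
    obtain ⟨J2, hJ2, hJ2c⟩ := inverted_set T u1 x2 hx2sq hTx2 hC2
    obtain ⟨J3, hJ3, hJ3c⟩ := inverted_set T u1 (x1 * x2 * x1) hx3sq hTx3 hC3
    have h12J : (J1 ∩ J2).card ≤ 2 := inter_inverted_le T u1 x1 x2 hCw J1 J2 hJ1 hJ2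
    have hwinv : x2 * x1 = w⁻¹ := by
      apply eq_inv_of_mul_eq_one_left
      calc x2 * x1 * (x1 * x2) = x2 * (x1 * x1) * x2 := by group
        _ = 1 := by rw [hx1sq, mul_one, hx2sq]
    have h13J : (J1 ∩ J3).card ≤ 2 := by
      apply inter_inverted_le T u1 x1 (x1 * x2 * x1) _ J1 J3 hJ1 hJ3
      intro s hs hc
      apply hCw s hs
      have e : x1 * (x1 * x2 * x1) = w⁻¹ := by
        rw [← hwinv]
        calc x1 * (x1 * x2 * x1) = (x1 * x1) * x2 * x1 := by group
          _ = x2 * x1 := by rw [hx1sq, one_mul]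
      rw [e] at hc
      have hc2 : Commute w⁻¹ s := hc
      have hc3 := hc2.inv_left
      rw [inv_inv] at hc3
      exact hc3
    have h23J : (J2 ∩ J3).card ≤ 2 := by
      apply inter_inverted_le T u1 x2 (x1 * x2 * x1) _ J2 J3 hJ2 hJ3
      intro s hs hc
      apply hCw s hs
      have e : x2 * (x1 * x2 * x1) = w := by
        have e1 : x2 * (x1 * x2 * x1) = w⁻¹ * w⁻¹ := by
          rw [← hwinv]; group
        have e2 : w⁻¹ * w⁻¹ = w := by
          calc w⁻¹ * w⁻¹ = w⁻¹ * w⁻¹ * (w * w * w) := by rw [hwww, mul_one]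
            _ = w := by group
        rw [e1, e2]
      rw [e] at hc
      exact hc
    have hsub : J1 ∪ J2 ∪ J3 ⊆ Finset.univ.filter (fun t => t ∈ T) := by
      intro s hs
      rw [Finset.mem_union, Finset.mem_union] at hs
      rw [Finset.mem_filter]
      refine ⟨Finset.mem_univ _, ?_⟩
      rcases hs with (h | h) | h
      · exact (hJ1 s h).1
      · exact (hJ2 s h).1
      · exact (hJ3 s h).1
    have hU := Finset.card_le_card hsub
    have hie : J1.card + J2.card + J3.card ≤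
        (J1 ∪ J2 ∪ J3).card + (J1 ∩ J2).card + (J1 ∩ J3).card + (J2 ∩ J3).card := by
      have e1 := Finset.card_union_add_card_inter J1 J2
      have e2 := Finset.card_union_add_card_inter (J1 ∪ J2) J3
      have e3 : ((J1 ∪ J2) ∩ J3).card ≤ (J1 ∩ J3).card + (J2 ∩ J3).card := by
        rw [Finset.union_inter_distrib_right]
        exact Finset.card_union_le _ _
      omega
    have hTcard : Fintype.card α ≤ (Finset.univ.filter (fun t => t ∈ T)).card + 3 := by
      have hsurj : Set.SurjOn (fun t : G => t • p4)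
          (Finset.univ.filter (fun t => t ∈ T) : Finset G)
          (Finset.univ \ {p1, p2, p3} : Finset α) := by
        intro q hq
        rw [Finset.mem_coe, Finset.mem_sdiff] at hq
        simp only [Finset.mem_insert, Finset.mem_singleton, not_or] at hq
        obtain ⟨t, ht, htq⟩ := stab3_trans hT h12 h13 h23 h14.symm h24.symm h34.symm
          hq.2.1 hq.2.2.1 hq.2.2.2
        exact ⟨t, Finset.mem_coe.mpr (Finset.mem_filter.mpr ⟨Finset.mem_univ _, ht⟩), htq⟩
      have h1 := Finset.card_le_card_of_surjOn _ hsurj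
      have h2 : (Finset.univ \ {p1, p2, p3} : Finset α).card =
          Fintype.card α - ({p1, p2, p3} : Finset α).card := Finset.card_univ_sdiff _
      have h3 : ({p1, p2, p3} : Finset α).card ≤ 3 := Finset.card_le_three
      omega
    omega
  · omega
  · omega
  · -- even degree
    exfalso
    have hC1 : ∀ t ∈ T, x1 * t = t * x1 → t = 1 := by
      intro t ht hc
      have hfix : x1 • (t • p4) = t • p4 := by rw [← mul_smul, hc, mul_smul, hx14]
      obtain ⟨-, -, ho3⟩ := stab3_out ht h14.symm h24.symm h34.symm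
      rcases hF1 _ hfix with h | h
      · exact absurd h ho3
      · exact stab3_free hS h12 h13 h23 ht h14.symm h24.symm h34.symm h
    have hC2 : ∀ t ∈ T, x2 * t = t * x2 → t = 1 := by
      intro t ht hc
      have hfix : x2 • (t • p4) = t • p4 := by rw [← mul_smul, hc, mul_smul, hx24]
      obtain ⟨ho1, -, -⟩ := stab3_out ht h14.symm h24.symm h34.symm
      rcases hF2 _ hfix with h | h
      · exact absurd h ho1
      · exact stab3_free hS h12 h13 h23 ht h14.symm h24.symm h34.symm h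
    have hinv1 := inverts_of_fpf T x1 hx1sq hTx1 hC1
    have hinv2 := inverts_of_fpf T x2 hx2sq hTx2 hC2
    have hw : ∀ s ∈ T, (x1 * x2) * s = s * (x1 * x2) := by
      intro s hs
      have h1 := hinv1 s hs
      have h2 := hinv2 s hs
      rw [hx1inv] at h1
      rw [hx2inv] at h2
      have e1 : x2 * s = s⁻¹ * x2 := by
        calc x2 * s = x2 * s * (x2 * x2) := by rw [hx2sq, mul_one]
          _ = (x2 * s * x2) * x2 := by group
          _ = s⁻¹ * x2 := by rw [h2]
      have e2 : s * x1 = x1 * s⁻¹ := by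
        calc s * x1 = (x1 * x1) * s * x1 := by rw [hx1sq, one_mul]
          _ = x1 * (x1 * s * x1) := by group
          _ = x1 * s⁻¹ := by rw [h1]
      calc x1 * x2 * s = x1 * (x2 * s) := by group
        _ = x1 * (s⁻¹ * x2) := by rw [e1]
        _ = (x1 * s⁻¹) * x2 := by group
        _ = (s * x1) * x2 := by rw [e2]
        _ = s * (x1 * x2) := by group
    have hwfix : ∀ q, q ≠ p1 → q ≠ p2 → q ≠ p3 → (x1 * x2) • q = q := by
      intro q h1 h2 h3
      obtain ⟨s, hs, hsq⟩ := stab3_trans hT h12 h13 h23 h14.symm h24.symm h34.symm h1 h2 h3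
      rw [← hsq, ← mul_smul, hw s hs, mul_smul, mul_smul, hx24, hx14]
    have hcard : 2 < (Finset.univ \ {p1, p2, p3, p4} : Finset α).card := by
      rw [Finset.card_univ_sdiff]
      have h4 : ({p1, p2, p3, p4} : Finset α).card ≤ 4 := Finset.card_le_four
      omega
    obtain ⟨a, b, c, ha, hb, hc, hab, hac, hbc⟩ := Finset.two_lt_card_iff.mp hcard
    simp only [Finset.mem_sdiff, Finset.mem_univ, true_and, Finset.mem_insert,
      Finset.mem_singleton, not_or] at ha hb hc
    have hw1 : x1 * x2 = 1 := hS (x1 * x2) p4 a b c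
      ⟨fun h => ha.2.2.2 h.symm, fun h => hb.2.2.2 h.symm, fun h => hc.2.2.2 h.symm,
        hab, hac, hbc⟩
      (by rw [mul_smul, hx24, hx14]) (hwfix a ha.1 ha.2.1 ha.2.2.1)
      (hwfix b hb.1 hb.2.1 hb.2.2.1) (hwfix c hc.1 hc.2.1 hc.2.2.1)
    have hw2 : (x1 * x2) • p1 = p2 := by rw [mul_smul, hx21, hx11]
    rw [hw1, one_smul] at hw2
    exact h12 hw2

end Sharp4

/-- Sharpness passes to the stabiliser of a point acting on the remaining points. -/
theorem sharp_ofStabilizer {G α : Type*} [Group G] [MulAction G α] (k : ℕ)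
    (hsharp : ∀ x : Fin (k + 1) ↪ α, stabilizer G x = ⊥) (a : α)
    (x : Fin k ↪ SubMulAction.ofStabilizer G a) : stabilizer (stabilizer G a) x = ⊥ := by
  rw [Subgroup.eq_bot_iff_forall]
  intro g hg
  have hmem : (g : G) ∈ stabilizer G (SubMulAction.ofStabilizer.snoc x) := by
    rw [mem_stabilizer_iff]
    ext i
    rcases Fin.eq_castSucc_or_eq_last i with ⟨i, rfl⟩ | rfl
    · rw [Function.Embedding.smul_apply, SubMulAction.ofStabilizer.snoc_castSucc]
      have hgi : g • x i = x i := by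
        have h := congrArg (fun e : Fin k ↪ SubMulAction.ofStabilizer G a => e i) hg
        exact h
      exact congrArg Subtype.val hgi
    · rw [Function.Embedding.smul_apply, SubMulAction.ofStabilizer.snoc_last]
      exact g.2
  rw [hsharp] at hmem
  exact Subtype.ext (Subgroup.mem_bot.mp hmem)

/-- **Jordan**: the degree of a sharply 4-transitive group is 4, 5, 6 or 11. -/
theorem jordan4 {G α : Type*} [Group G] [Finite G] [MulAction G α] [Finite α]
    [IsMultiplyPretransitive G α 4] (h4 : 4 ≤ Nat.card α)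
    (hsharp : ∀ x : Fin 4 ↪ α, stabilizer G x = ⊥) :
    Nat.card α = 4 ∨ Nat.card α = 5 ∨ Nat.card α = 6 ∨ Nat.card α = 11 := by
  by_cases h : 7 ≤ Nat.card α
  · right; right; right
    exact jordan4_core (eq_one_of_fix4 hsharp)
      (fun a b c d a' b' c' d' h h' => exists_map4 a b c d a' b' c' d' h h') h
  · omega

/-- One step down: the point stabiliser of a sharply `(k+1)`-transitive group is sharply
`k`-transitive on the remaining points. -/
theorem sharp_step {G α : Type*} [Group G] [MulAction G α] [Finite α] (k : ℕ)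
    [hk : IsMultiplyPretransitive G α (k + 1)] (hn : k + 1 ≤ Nat.card α)
    (hsharp : ∀ x : Fin (k + 1) ↪ α, stabilizer G x = ⊥) :
    ∃ a : α, IsMultiplyPretransitive (stabilizer G a) (SubMulAction.ofStabilizer G a) k ∧
      (∀ x : Fin k ↪ SubMulAction.ofStabilizer G a, stabilizer (stabilizer G a) x = ⊥) ∧
      Nat.card (SubMulAction.ofStabilizer G a) + 1 = Nat.card α := by
  obtain ⟨a⟩ : Nonempty α := by
    have h : 0 < Nat.card α := by omega
    exact (Nat.card_pos_iff.mp h).1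
  have h1 : IsMultiplyPretransitive G α 1 :=
    isMultiplyPretransitive_of_le (n := k + 1) (by omega) hn
  have htr : IsPretransitive G α := is_one_pretransitive_iff.mp h1
  exact ⟨a, SubMulAction.ofStabilizer.isMultiplyPretransitive.mp hk,
    sharp_ofStabilizer k hsharp a, SubMulAction.nat_card_ofStabilizer_add_one_eq G a⟩

/-- **Jordan**: the degree of a sharply 5-transitive group is 5, 6, 7 or 12. -/
theorem jordan5 {G α : Type*} [Group G] [Finite G] [MulAction G α] [Finite α]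
    [IsMultiplyPretransitive G α 5] (h5 : 5 ≤ Nat.card α)
    (hsharp : ∀ x : Fin 5 ↪ α, stabilizer G x = ⊥) :
    Nat.card α = 5 ∨ Nat.card α = 6 ∨ Nat.card α = 7 ∨ Nat.card α = 12 := by
  obtain ⟨a, h4, hs, hc⟩ := sharp_step 4 h5 hsharp
  have h := jordan4 (G := stabilizer G a) (α := SubMulAction.ofStabilizer G a) (by omega) hs
  omega

/-- Sylow's theorem for a group of order `p * c` (`p` not dividing `c`) acting faithfully on
`p` points: the index `i` of the normaliser of a subgroup of order `p` satisfies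
`i ≡ 1 [MOD p]` and `c = r * i` with `r ∣ p - 1`. -/
theorem sylow_prime_degree {G α : Type*} [Group G] [Finite G] [MulAction G α] [Finite α]
    (p : ℕ) [hp : Fact p.Prime] (hfaith : ∀ g : G, (∀ b : α, g • b = b) → g = 1)
    (hα : Nat.card α = p) (c : ℕ) (hcard : Nat.card G = p * c) (hc : ¬ p ∣ c) :
    ∃ r i, r ∣ p - 1 ∧ r * i = c ∧ i ≡ 1 [MOD p] := by
  obtain ⟨K, hK⟩ := Sylow.exists_subgroup_card_pow_prime p (G := G) (n := 1)
    (by rw [hcard, pow_one]; exact dvd_mul_right p c)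
  rw [pow_one] at hK
  have hKidx : K.index = c := by
    have h := K.card_mul_index
    rw [hK, hcard] at h
    exact Nat.eq_of_mul_eq_mul_left hp.out.pos h
  let P : Sylow p G := (IsPGroup.of_card (n := 1) (by rw [hK, pow_one])).toSylow
    (by rw [hKidx]; exact hc)
  have hprime : (Nat.card K).Prime := by rw [hK]; exact hp.out
  obtain ⟨a0, htrK⟩ := transitive_of_card_prime hfaith K hprime (by rw [hα, hK])
  have hcyc : IsCyclic K := isCyclic_of_prime_card (p := p) hK
  have hcomm : ∀ y ∈ K, ∀ z ∈ K, y * z = z * y := by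
    intro y hy z hz
    obtain ⟨g, hg⟩ := hcyc.exists_generator
    obtain ⟨i, hi⟩ := Subgroup.mem_zpowers_iff.mp (hg ⟨y, hy⟩)
    obtain ⟨j, hj⟩ := Subgroup.mem_zpowers_iff.mp (hg ⟨z, hz⟩)
    have h : (⟨y, hy⟩ : K) * ⟨z, hz⟩ = ⟨z, hz⟩ * ⟨y, hy⟩ := by
      rw [← hi, ← hj, ← zpow_add, ← zpow_add, add_comm]
    exact congrArg Subtype.val h
  have hcent : Subgroup.centralizer (K : Set G) = K := by
    apply le_antisymm (centralizer_le_of_transitive hfaith K hcomm a0 htrK)
    intro y hy z hz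
    exact hcomm z hz y hy
  have key := Subgroup.card_dvd_of_injective _
    (QuotientGroup.kerLift_injective K.normalizerMonoidHom)
  rw [Subgroup.normalizerMonoidHom_ker, ← Subgroup.index, ← Subgroup.relIndex, hcent,
    IsCyclic.card_mulAut, hK, Nat.totient_prime hp.out] at key
  have hKle : K ≤ Subgroup.normalizer (K : Set G) := Subgroup.le_normalizer
  have hsyl := card_sylow_modEq_one p G
  rw [P.card_eq_index_normalizer] at hsyl
  change (Subgroup.normalizer (K : Set G)).index ≡ 1 [MOD p] at hsyl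
  have hrel := Subgroup.relIndex_mul_index hKle
  rw [hKidx] at hrel
  exact ⟨_, _, key, hrel, hsyl⟩

/-- There is no sharply 6-transitive group of degree 13. -/
theorem no_sharp6_deg13 {G α : Type*} [Group G] [Finite G] [MulAction G α] [Finite α]
    [IsMultiplyPretransitive G α 6] (hα : Nat.card α = 13)
    (hsharp : ∀ x : Fin 6 ↪ α, stabilizer G x = ⊥) : False := by
  have hcard : Nat.card G = 13 * 95040 := by
    rw [card_of_sharp 6 (by omega) hsharp, hα]; rfl
  have hfaith := faith_of_sharp 6 (by omega) hsharp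
  have hp : Fact (Nat.Prime 13) := ⟨by norm_num⟩
  obtain ⟨r, i, hr, hri, hi⟩ := sylow_prime_degree 13 hfaith hα 95040 hcard (by norm_num)
  have hr12 : r ≤ 12 := Nat.le_of_dvd (by norm_num) hr
  have hr0 : 0 < r := Nat.pos_of_dvd_of_pos hr (by norm_num)
  unfold Nat.ModEq at hi
  interval_cases r
  all_goals first
    | (exfalso; revert hr; decide)
    | omega

/-- **Jordan**: for `k ≥ 6`, the degree of a sharply `k`-transitive group is `k`, `k + 1`
or `k + 2`. -/
theorem jordan_ge6.{u, v} (k : ℕ) (hk : 6 ≤ k) :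
    ∀ (G : Type u) (α : Type v) [Group G] [Finite G] [MulAction G α] [Finite α],
      IsMultiplyPretransitive G α k → k ≤ Nat.card α →
      (∀ x : Fin k ↪ α, stabilizer G x = ⊥) →
      Nat.card α = k ∨ Nat.card α = k + 1 ∨ Nat.card α = k + 2 := by
  induction k, hk using Nat.le_induction with
  | base =>
    intro G α _ _ _ _ h6 hn hsharp
    by_cases h : Nat.card α = 6
    · exact Or.inl h
    · obtain ⟨a, h5, hs, hc⟩ := sharp_step 5 (by omega) hsharp
      have h' := jordan5 (G := stabilizer G a) (α := SubMulAction.ofStabilizer G a)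
        (by omega) hs
      have h13 : Nat.card α ≠ 13 := fun h13 => no_sharp6_deg13 h13 hsharp
      omega
  | succ k hk ih =>
    intro G α _ _ _ _ hk1 hn hsharp
    obtain ⟨a, hk', hs, hc⟩ := sharp_step k hn hsharp
    have h' := ih (stabilizer G a) (SubMulAction.ofStabilizer G a) hk' (by omega) hs
    omega

end Cfsg.Agent.Lib.Helper7
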